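import Cfsg.Agent.Chars.Basic
import Cfsg.Agent.Chars.GaloisHom.Basic
import Cfsg.Agent.Constrained.Fitting

/-!
# An irreducible product of a faithful character with a Galois conjugate
-/

set_option autoImplicit false

namespace CfsgLib.GaloisProduct

open Cfsg CfsgLib.Chars
open scoped TensorProduct ComplexConjugate

universe u

variable {G : Type u} [Group G] [Finite G] {n m : ℕ}

/-- The hypotheses, on representations. -/
structure Data (ρ : Representation ℂ G (Fin n → ℂ)) (τ : Representation ℂ G (Fin m → ℂ))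
    (k : ℕ) : Prop where
  coprime : Nat.Coprime k (Nat.card G)
  faithful : ∀ g : G, ρ.character g = ρ.character 1 → g = 1
  galois : ∀ g : G, τ.character g = ρ.character (g ^ k)
  irr : IsIrrCharacter G (fun g => ρ.character g * τ.character g)

variable {k : ℕ} {ρ : Representation ℂ G (Fin n → ℂ)} {τ : Representation ℂ G (Fin m → ℂ)}

/-- The endomorphisms of the tensor product. -/
abbrev End2 (n m : ℕ) :=
  ((Fin n → ℂ) ⊗[ℂ] (Fin m → ℂ)) →ₗ[ℂ] ((Fin n → ℂ) ⊗[ℂ] (Fin m → ℂ))

/-- The action of `G × G` on the tensor product. -/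
noncomputable def outer (ρ : Representation ℂ G (Fin n → ℂ)) (τ : Representation ℂ G (Fin m → ℂ)) :
    Representation ℂ (G × G) ((Fin n → ℂ) ⊗[ℂ] (Fin m → ℂ)) :=
  Representation.tprod (ρ.comp (MonoidHom.fst G G)) (τ.comp (MonoidHom.snd G G))

omit [Finite G] in
theorem outer_trace (a b : G) :
    LinearMap.trace ℂ _ (outer ρ τ (a, b)) = ρ.character a * τ.character b :=
  LinearMap.trace_tensorProduct' (ρ a) (τ b)

omit [Finite G] in
theorem outer_mul (a b a' b' : G) :
    outer ρ τ (a, b) * outer ρ τ (a', b') = outer ρ τ (a * a', b * b') := by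
  rw [← map_mul]; rfl

omit [Finite G] in
theorem outer_one : outer ρ τ ((1 : G), (1 : G)) = 1 := map_one (outer ρ τ)

theorem Data.trace_ne_zero (A : Data ρ τ k) : ρ.character 1 * τ.character 1 ≠ 0 :=
  map_one_ne_zero (⟨_, A.irr⟩ : IrrCharacter G)

theorem Data.eq_one (A : Data ρ τ k) {z : G} (hz : outer ρ τ (1, z) = 1) : z = 1 := by
  have h : LinearMap.trace ℂ _ (outer ρ τ (1, z)) = ρ.character 1 * τ.character 1 := by
    rw [hz, ← outer_one (ρ := ρ) (τ := τ), outer_trace]
  rw [outer_trace] at h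
  have h1 := mul_left_cancel₀ (left_ne_zero_of_mul A.trace_ne_zero) h
  rw [A.galois, A.galois, one_pow] at h1
  have h2 := A.faithful _ h1
  refine (powCoprime A.coprime.symm).injective ?_
  simp [powCoprime_apply, h2]

theorem Data.schur (A : Data ρ τ k) (S : End2 n m)
    (hS : ∀ g : G, S * outer ρ τ (g, g) = outer ρ τ (g, g) * S) : ∃ c : ℂ, S = c • 1 := by
  haveI : Fintype G := Fintype.ofFinite G
  haveI : Invertible (Nat.card G : ℂ) :=
    invertibleOfNonzero (by exact_mod_cast Nat.card_pos.ne')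
  let D : Representation ℂ G ((Fin n → ℂ) ⊗[ℂ] (Fin m → ℂ)) :=
    (outer ρ τ).comp (MonoidHom.prod (MonoidHom.id G) (MonoidHom.id G))
  have hDchar : D.character = fun g => ρ.character g * τ.character g :=
    funext fun g => outer_trace g g
  have hone : Module.finrank ℂ (Representation.IntertwiningMap D D) = 1 := by
    have h := Representation.card_inv_mul_sum_char_mul_char_eq_finrank D D
    rw [hDchar] at h
    have h2 := classInner_self (⟨_, A.irr⟩ : IrrCharacter G)
    rw [classInner_eq_sum_map_inv _ (isCharacter_coe (⟨_, A.irr⟩ : IrrCharacter G))] at h2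
    exact_mod_cast h.symm.trans h2
  let f : Representation.IntertwiningMap D D :=
    { toLinearMap := S
      isIntertwining' := hS }
  let e : Representation.IntertwiningMap D D :=
    { toLinearMap := (1 : End2 n m)
      isIntertwining' := fun g => by exact (one_mul _).trans (mul_one _).symm }
  have he : e ≠ 0 := fun h => by
    have h2 : LinearMap.trace ℂ _ (1 : End2 n m) = 0 :=
      (congrArg (fun x : Representation.IntertwiningMap D D => LinearMap.trace ℂ _ x.toLinearMap) h).trans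
        (map_zero _)
    rw [← outer_one (ρ := ρ) (τ := τ), outer_trace] at h2
    exact A.trace_ne_zero h2
  obtain ⟨c, hc⟩ := exists_smul_eq_of_finrank_eq_one hone he f
  exact ⟨c, (congrArg Representation.IntertwiningMap.toLinearMap hc).symm⟩

/-- The sum of the twisted operators over a normal subgroup. -/
theorem Data.sum_scalar (A : Data ρ τ k) (N : Subgroup G) [N.Normal] [Fintype N] :
    ∃ c : ℂ, c ≠ 0 ∧ ∑ x : N, outer ρ τ ((x : G)⁻¹ ^ k, (x : G)) = c • 1 := by
  obtain ⟨c, hc⟩ := A.schur (∑ x : N, outer ρ τ ((x : G)⁻¹ ^ k, (x : G))) fun g => by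
    rw [Finset.sum_mul, Finset.mul_sum]
    refine (Fintype.sum_equiv (MulAut.conjNormal g).toEquiv _ _ fun x => ?_).symm
    simp only [MulEquiv.toEquiv_eq_coe, EquivLike.coe_coe, MulAut.conjNormal_apply, outer_mul,
      mul_inv_rev, inv_inv, ← mul_assoc, conj_pow, inv_mul_cancel_right]
  refine ⟨c, fun h0 => ?_, hc⟩
  have h := congrArg (LinearMap.trace ℂ _) hc
  rw [h0, zero_smul, map_zero, map_sum] at h
  have h2 : ∑ x : N, ((‖ρ.character ((x : G) ^ k)‖ ^ 2 : ℝ) : ℂ) = 0 := by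
    rw [← h]
    refine Finset.sum_congr rfl fun x _ => ?_
    rw [outer_trace, A.galois, inv_pow, map_inv_eq_conj ⟨n, ρ, rfl⟩, ← Complex.normSq_eq_norm_sq,
      Complex.normSq_eq_conj_mul_self]
  rw [← Complex.ofReal_sum, Complex.ofReal_eq_zero] at h2
  have h3 := (Finset.sum_eq_zero_iff_of_nonneg fun x _ => sq_nonneg _).1 h2 1 (Finset.mem_univ _)
  rw [Subgroup.coe_one, one_pow, sq_eq_zero_iff, norm_eq_zero] at h3
  exact left_ne_zero_of_mul A.trace_ne_zero h3

/-- Abelian normal subgroups are central. -/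
theorem Data.abelian_le_center (A : Data ρ τ k) (N : Subgroup G) [N.Normal]
    (hab : ∀ x ∈ N, ∀ y ∈ N, x * y = y * x) : N ≤ Subgroup.center G := by
  classical
  haveI : Fintype N := Fintype.ofFinite N
  obtain ⟨c, hc0, hc⟩ := A.sum_scalar N
  intro y hy
  have hTy : outer ρ τ (y⁻¹ ^ k, y) = 1 := by
    have h : outer ρ τ (y⁻¹ ^ k, y) * (∑ x : N, outer ρ τ ((x : G)⁻¹ ^ k, (x : G))) =
        ∑ x : N, outer ρ τ ((x : G)⁻¹ ^ k, (x : G)) := by
      rw [Finset.mul_sum]
      refine Fintype.sum_equiv (Equiv.mulLeft (⟨y, hy⟩ : N)) _ _ fun x => ?_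
      have hcm : Commute y⁻¹ (x : G)⁻¹ := Commute.inv_inv (hab y hy x.1 x.2)
      simp only [Equiv.coe_mulLeft, Subgroup.coe_mul, outer_mul]
      rw [← hcm.mul_pow, ← mul_inv_rev, ← hab y hy x.1 x.2]
    rw [hc, mul_smul_comm, mul_one] at h
    exact smul_right_injective _ hc0 h
  rw [Subgroup.mem_center_iff]
  intro g
  have hy1 : outer ρ τ (1, y) = outer ρ τ (y ^ k, 1) := by
    have : outer ρ τ (y ^ k, 1) * outer ρ τ (y⁻¹ ^ k, y) = outer ρ τ (1, y) := by
      rw [outer_mul, inv_pow, mul_inv_cancel, one_mul]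
    rw [← this, hTy, mul_one]
  have h1 : outer ρ τ (1, y * g) = outer ρ τ (1, g * y) := by
    have e1 := outer_mul (ρ := ρ) (τ := τ) 1 y 1 g
    have e2 := outer_mul (ρ := ρ) (τ := τ) 1 g 1 y
    rw [one_mul, hy1, outer_mul, mul_one, one_mul] at e1
    rw [one_mul, hy1, outer_mul, one_mul, mul_one] at e2
    exact e1.symm.trans e2
  refine mul_inv_eq_one.1 (A.eq_one ?_)
  have e := outer_mul (ρ := ρ) (τ := τ) 1 (g * y) 1 (y * g)⁻¹
  rw [one_mul, ← h1, outer_mul, one_mul, mul_inv_cancel, outer_one] at e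
  exact e.symm

/-- Normal subgroups with central commutators are central. -/
theorem Data.le_center (A : Data ρ τ k) (N : Subgroup G) [N.Normal]
    (hN : ⁅N, N⁆ ≤ Subgroup.center G) : N ≤ Subgroup.center G := by
  classical
  haveI : Fintype N := Fintype.ofFinite N
  by_contra hnc
  obtain ⟨x0, hx0, hx0c⟩ := SetLike.not_le_iff_exists.1 hnc
  have hZN : ∀ x ∈ N, (∀ y ∈ N, y * x = x * y) → x ∈ Subgroup.center G := fun x hx h => by
    refine A.abelian_le_center (N ⊓ Subgroup.centralizer (N : Set G)) (fun a ha b hb => ?_) ⟨hx, ?_⟩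
    · exact (Subgroup.mem_centralizer_iff.1 hb.2 a ha.1)
    · exact Subgroup.mem_centralizer_iff.2 h
  have hcomm : ∀ y ∈ N, ∀ x ∈ N, y * x * y⁻¹ * x⁻¹ ∈ Subgroup.center G := fun y hy x hx =>
    hN (by
      have := Subgroup.commutator_mem_commutator hy hx
      rwa [commutatorElement_def] at this)
  -- central elements act as scalars
  have hz : ∀ z ∈ Subgroup.center G, ∀ a b : G, (a = 1 ∧ b = z ∨ a = z ∧ b = 1) →
      ∃ l : ℂ, outer ρ τ (a, b) = l • 1 := fun z hz a b hab => A.schur _ fun g => by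
    rw [outer_mul, outer_mul]
    have hg := Subgroup.mem_center_iff.1 hz g
    rcases hab with ⟨rfl, rfl⟩ | ⟨rfl, rfl⟩ <;> simp [hg]
  choose! l hl using fun z (h : z ∈ Subgroup.center G) => hz z h 1 z (Or.inl ⟨rfl, rfl⟩)
  have hzT : ∀ z ∈ Subgroup.center G, outer ρ τ (z⁻¹ ^ k, z) = 1 := by
    intro z hzc
    obtain ⟨a, ha⟩ := hz z hzc z 1 (Or.inr ⟨rfl, rfl⟩)
    have hpow : outer ρ τ (z ^ k, 1) = (a ^ k) • 1 := by
      have e : ((z, (1 : G)) : G × G) ^ k = (z ^ k, 1) := by simp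
      rw [← e, map_pow, ha, smul_pow, one_pow]
    have e1 : outer ρ τ (1, z) = l z • 1 := hl z hzc
    have t0 : LinearMap.trace ℂ _ (1 : End2 n m) = ρ.character 1 * τ.character 1 := by
      rw [← outer_one (ρ := ρ) (τ := τ), outer_trace]
    have t1 := congrArg (LinearMap.trace ℂ _) hpow
    have t2 := congrArg (LinearMap.trace ℂ _) e1
    simp only [outer_trace, map_smul, t0, A.galois, one_pow, smul_eq_mul] at t1 t2
    have hl' : l z = a ^ k := by
      have h0 := A.trace_ne_zero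
      rw [A.galois, one_pow] at h0
      rw [mul_comm (ρ.character 1) (ρ.character (z ^ k))] at t2
      exact mul_right_cancel₀ h0 (t2.symm.trans t1)
    have : outer ρ τ (z ^ k, 1) * outer ρ τ (z⁻¹ ^ k, z) = outer ρ τ (1, z) := by
      rw [outer_mul, inv_pow, mul_inv_cancel, one_mul]
    rw [hpow, e1, hl', smul_mul_assoc, one_mul] at this
    refine smul_right_injective _ ?_ this
    intro h0
    have hh : outer ρ τ (z⁻¹ ^ k, 1) * outer ρ τ (z ^ k, 1) = 1 := by
      rw [outer_mul, inv_pow, inv_mul_cancel, one_mul, outer_one]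
    rw [hpow, h0, zero_smul, mul_zero] at hh
    rw [← hh, map_zero] at t0
    exact A.trace_ne_zero t0.symm
  haveI : Nontrivial (End2 n m) := ⟨⟨1, 0, fun h => A.trace_ne_zero (by
    rw [← outer_trace 1 1, outer_one, h, map_zero])⟩⟩
  have hinj : Function.Injective fun a : ℂ => a • (1 : End2 n m) := fun a b h => by
    have h' := congrArg (LinearMap.trace ℂ _) h
    simp only [map_smul, ← outer_one (ρ := ρ) (τ := τ), outer_trace, smul_eq_mul] at h'
    exact mul_right_cancel₀ A.trace_ne_zero h'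
  have hl1 : ∀ z ∈ Subgroup.center G, ∀ w ∈ Subgroup.center G, l (z * w) = l z * l w := by
    intro z hz' w hw'
    have e := outer_mul (ρ := ρ) (τ := τ) 1 z 1 w
    rw [one_mul, hl z hz', hl w hw', hl _ (mul_mem hz' hw'), smul_mul_smul_comm, one_mul] at e
    exact (hinj e).symm
  obtain ⟨c, -, hc⟩ := A.sum_scalar N
  -- the homomorphisms
  have hl0 : l 1 = 1 := by
    have e := hl 1 (one_mem _)
    rw [outer_one] at e
    exact hinj (e.symm.trans (one_smul ℂ _).symm)
  let φ : N → (N →* ℂ) := fun x =>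
    { toFun := fun y => l ((y : G) * x * (y : G)⁻¹ * (x : G)⁻¹)
      map_one' := by simp [hl0]
      map_mul' := fun y1 y2 => by
        have h2 := hcomm y2.1 y2.2 x.1 x.2
        have h1 := hcomm y1.1 y1.2 x.1 x.2
        rw [← hl1 _ h1 _ h2]
        congr 1
        have hc2 := Subgroup.mem_center_iff.1 h2 (y1 : G)
        push_cast
        have hswap := Subgroup.mem_center_iff.1 h2 ((y1 : G) * x * (y1 : G)⁻¹ * (x : G)⁻¹)
        calc (y1 : G) * y2 * x * ((y1 : G) * y2)⁻¹ * (x : G)⁻¹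
            = ((y1 : G) * ((y2 : G) * x * (y2 : G)⁻¹ * (x : G)⁻¹)) * x * (y1 : G)⁻¹ * (x : G)⁻¹ := by group
          _ = _ := by rw [hc2]; group
          _ = _ := hswap.symm }
  have hφ : ∀ x x' : N, φ x = φ x' → (x : G) * (x' : G)⁻¹ ∈ Subgroup.center G := by
    intro x x' h
    refine hZN _ (mul_mem x.2 (inv_mem x'.2)) fun y hy => ?_
    have hh : l (y * x * y⁻¹ * (x : G)⁻¹) = l (y * x' * y⁻¹ * (x' : G)⁻¹) :=
      DFunLike.congr_fun h ⟨y, hy⟩
    have h1 := hcomm y hy x.1 x.2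
    have h2 := hcomm y hy x'.1 x'.2
    have he : y * x * y⁻¹ * (x : G)⁻¹ = y * x' * y⁻¹ * (x' : G)⁻¹ := by
      refine mul_inv_eq_one.1 (A.eq_one ?_)
      rw [hl _ (mul_mem h1 (inv_mem h2)), hl1 _ h1 _ (inv_mem h2), hh, ← hl1 _ h2 _ (inv_mem h2),
        mul_inv_cancel, hl0, one_smul]
    have hc1 := Subgroup.mem_center_iff.1 h1 (x : G)
    calc y * ((x : G) * (x' : G)⁻¹)
        = (y * x * y⁻¹ * (x : G)⁻¹) * x * (y * (x' : G)⁻¹) := by group
      _ = (x : G) * (y * x' * y⁻¹ * (x' : G)⁻¹) * (y * (x' : G)⁻¹) := by rw [← hc1, he]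
      _ = (x : G) * (x' : G)⁻¹ * y := by
        have h3 := Subgroup.mem_center_iff.1 h2 (x' : G)⁻¹
        rw [show y * (x' : G)⁻¹ = (x' : G)⁻¹ * (y * x' * y⁻¹ * (x' : G)⁻¹)⁻¹ * y by group,
          mul_assoc (x : G), ← mul_assoc (y * x' * y⁻¹ * (x' : G)⁻¹), ← mul_assoc (y * x' * y⁻¹ * (x' : G)⁻¹),
          ← h3]
        group
  have key : ∀ y : N, ∑ x : N, φ x y • outer ρ τ ((x : G)⁻¹ ^ k, (x : G)) = c • 1 := by
    intro y
    have h : outer ρ τ (1, (y : G)) * (∑ x : N, outer ρ τ ((x : G)⁻¹ ^ k, (x : G))) *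
        outer ρ τ (1, (y : G)⁻¹) = c • 1 := by
      rw [hc, mul_smul_comm, mul_one, smul_mul_assoc, outer_mul, one_mul, mul_inv_cancel, outer_one]
    rw [← h, Finset.mul_sum, Finset.sum_mul]
    refine Finset.sum_congr rfl fun x _ => ?_
    change l _ • _ = _
    rw [← one_mul (outer ρ τ ((x : G)⁻¹ ^ k, (x : G))), ← smul_mul_assoc,
      ← hl _ (hcomm y.1 y.2 x.1 x.2), one_mul, outer_mul, outer_mul, outer_mul]
    congr 1
    simp only [one_mul, mul_one, Prod.mk.injEq, true_and]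
    group
  let ψ : N →* ℂ := φ (⟨x0, hx0⟩⁻¹ : N)
  set z0 : N := ⟨x0, hx0⟩ with hz0
  have hψ : ∀ x y : N, φ x y * ψ y = φ (x * z0⁻¹) y := by
    intro x y
    change l _ * l _ = l _
    rw [← hl1 _ (hcomm y.1 y.2 x.1 x.2) _ (hcomm y.1 y.2 _ (z0⁻¹).2)]
    congr 1
    have hc2 := Subgroup.mem_center_iff.1 (hcomm y.1 y.2 _ (z0⁻¹).2) (x : G)⁻¹
    push_cast at hc2 ⊢
    calc (y : G) * x * (y : G)⁻¹ * (x : G)⁻¹ * ((y : G) * (z0 : G)⁻¹ * (y : G)⁻¹ * ((z0 : G)⁻¹)⁻¹)
        = (y : G) * x * (y : G)⁻¹ * ((x : G)⁻¹ * ((y : G) * (z0 : G)⁻¹ * (y : G)⁻¹ * ((z0 : G)⁻¹)⁻¹)) := by group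
      _ = _ := by rw [hc2]; group
  have hsumψ : ∑ y : N, ψ y = 0 := by
    rw [sum_hom_units, Nat.cast_eq_zero]
    refine if_neg fun h => ?_
    have h1 : φ z0⁻¹ = φ 1 := by
      refine MonoidHom.ext fun y => (DFunLike.congr_fun h y).trans ?_
      change (1 : ℂ) = l _
      simp [hl0]
    have h2 := hφ _ _ h1
    simp only [Subgroup.coe_inv, Subgroup.coe_one, inv_one, mul_one] at h2
    exact hx0c (inv_mem_iff.1 h2)
  have hsum := congrArg (fun F : N → End2 n m => ∑ y : N, ψ y • F y)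
    (funext key : (fun y : N => ∑ x : N, φ x y • outer ρ τ ((x : G)⁻¹ ^ k, (x : G))) = fun _ => c • 1)
  simp only [← Finset.sum_smul, Finset.smul_sum, smul_smul] at hsum
  rw [Finset.sum_comm] at hsum
  simp only [← Finset.sum_smul, mul_comm (ψ _), hψ, sum_hom_units, Nat.cast_ite, Nat.cast_zero, ite_smul, zero_smul] at hsum
  rw [← Finset.sum_filter] at hsum
  have hconst : ∀ x ∈ Finset.univ.filter (fun x : N => φ (x * z0⁻¹) = 1),
      ((Fintype.card N : ℕ) : ℂ) • outer ρ τ ((x : G)⁻¹ ^ k, (x : G)) =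
        ((Fintype.card N : ℕ) : ℂ) • outer ρ τ (x0⁻¹ ^ k, x0) := by
    intro x hx
    congr 1
    have hw : ((x * z0⁻¹ : N) : G) ∈ Subgroup.center G := by
      have h1 : φ (x * z0⁻¹) = φ 1 := by
        rw [(Finset.mem_filter.1 hx).2]
        refine MonoidHom.ext fun y => ?_
        change (1 : ℂ) = l _
        simp [hl0]
      simpa using hφ _ _ h1
    push_cast at hw
    rw [show (z0 : G) = x0 from rfl] at hw
    have e := outer_mul (ρ := ρ) (τ := τ) (((x : G) * x0⁻¹)⁻¹ ^ k) ((x : G) * x0⁻¹) (x0⁻¹ ^ k) x0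
    rw [hzT _ hw, one_mul, inv_mul_cancel_right,
      ← (show Commute ((x : G) * x0⁻¹)⁻¹ x0⁻¹ from
        (Subgroup.mem_center_iff.1 (inv_mem hw) x0⁻¹).symm).mul_pow] at e
    rw [show ((x : G) * x0⁻¹)⁻¹ * x0⁻¹ = (x : G)⁻¹ by
      rw [← Subgroup.mem_center_iff.1 (inv_mem hw) x0⁻¹]; group] at e
    rw [e]
  rw [Finset.sum_congr rfl hconst, Finset.sum_const, ← Nat.cast_smul_eq_nsmul ℂ, smul_smul,
    ← Finset.mul_sum, hsumψ, mul_zero, zero_smul, smul_eq_zero] at hsum
  rcases hsum with h | h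
  · rw [mul_eq_zero, Nat.cast_eq_zero, Nat.cast_eq_zero, Finset.card_eq_zero] at h
    rcases h with h | h
    · have : z0 ∈ Finset.univ.filter (fun x : N => φ (x * z0⁻¹) = 1) :=
        Finset.mem_filter.2 ⟨Finset.mem_univ _, MonoidHom.ext fun y => by
          change l _ = 1
          simp [hl0]⟩
      rw [h] at this
      exact Finset.notMem_empty _ this
    · exact Fintype.card_ne_zero h
  · have e := outer_mul (ρ := ρ) (τ := τ) ((x0⁻¹ ^ k)⁻¹) x0⁻¹ (x0⁻¹ ^ k) x0
    rw [h, mul_zero, inv_mul_cancel, inv_mul_cancel, outer_one] at e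
    exact zero_ne_one e

/-- The Fitting subgroup is the centre. -/
theorem fitting_eq_center (χ : IrrCharacter G) (hf : ∀ g : G, (χ : G → ℂ) g = (χ : G → ℂ) 1 → g = 1)
    (hk : Nat.Coprime k (Nat.card G))
    (hirr : IsIrrCharacter G (fun g => (χ : G → ℂ) g * (χ : G → ℂ) (g ^ k))) :
    fittingSubgroup G = Subgroup.center G := by
  obtain ⟨n, ρ, -, hρ⟩ := χ.2
  obtain ⟨σ, hσ⟩ := CfsgLib.GaloisHom.exists_ringHom_char (Nat.card_pos (α := G)) hk
  obtain ⟨m, τ, -, hτ⟩ := isIrrCharacter_ringHom χ.2 σ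
  have A : Data ρ τ k :=
    { coprime := hk
      faithful := by rw [hρ]; exact hf
      galois := fun g => by
        rw [hτ, hρ]; exact hσ (isCharacter_coe χ) g (orderOf_dvd_natCard g)
      irr := by
        refine cast (congrArg (IsIrrCharacter G) (funext fun g => ?_)) hirr
        rw [hτ, hρ]
        show _ = (χ : G → ℂ) g * σ ((χ : G → ℂ) g)
        rw [hσ (isCharacter_coe χ) g (orderOf_dvd_natCard g)] }
  refine le_antisymm ?_ (CfsgLib.Constrained.le_fitting inferInstance ?_)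
  swap
  · exact @CommGroup.isNilpotent (Subgroup.center G)
      { (inferInstance : Group (Subgroup.center G)) with
        mul_comm := fun a b => Subtype.ext (Subgroup.mem_center_iff.1 b.2 a) }
  haveI := CfsgLib.Constrained.isNilpotent_fitting (G := G)
  suffices h : ∀ j : ℕ, ∀ N : Subgroup G, N.Normal → Nat.card N ≤ j → N ≤ fittingSubgroup G →
      N ≤ Subgroup.center G from h _ _ inferInstance le_rfl le_rfl
  intro j
  induction j using Nat.strong_induction_on with
  | _ j ih =>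
    intro N hN hj hle
    haveI := hN
    by_cases hN0 : N = ⊥
    · rw [hN0]; exact bot_le
    haveI : Group.IsNilpotent N :=
      Group.nilpotent_of_mulEquiv (Subgroup.subgroupOfEquivOfLe hle)
    have hlt : ⁅N, N⁆ < N := by
      have h := Group.IsSolvable.commutator_lt_of_ne_bot (G := N) (H := (⊤ : Subgroup N))
        (fun e => hN0 (by rw [← N.range_subtype, MonoidHom.range_eq_map, e, Subgroup.map_bot]))
      have := (Subgroup.map_lt_map_iff_of_injective N.subtype_injective).2 h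
      rwa [Subgroup.map_commutator, ← MonoidHom.range_eq_map, N.range_subtype] at this
    have hcard : Nat.card ↥⁅N, N⁆ < Nat.card N :=
      Set.ncard_lt_ncard hlt (Set.toFinite _)
    exact A.le_center N (ih _ (hcard.trans_le hj) _ inferInstance le_rfl (hlt.le.trans hle))

end CfsgLib.GaloisProduct
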